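import Cfsg.Agent.H98.SzInv
import Cfsg.Agent.H947.Cyc.Sz
import Cfsg.Agent.S0324
import Cfsg.Agent.Lib.FieldAutCard

/-!
# Generation of `Sz(q)` by two elements `z₋(c φ(t)) z(t)` (S4327, exceptional groups, helper937)

`z(t) = u 0 t` runs over the centre of the Sylow 2-subgroup `Q`, `z₋(s) = w z(s) w` over the centre of the opposite
one.  The trace of `z₋(s) z(t)` is `(s t)^σ`, and an element of odd order is determined up to conjugation by its
trace (H98); so the elements `z₋(s) z(t)`, `s t = b`, form one class of elements of odd order, and every nontrivial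
element of odd order is of this form.
-/

set_option autoImplicit false

namespace Cfsg.Agent.H937.Gs.SzS

open scoped MatrixGroups Matrix
open Cfsg.Agent.LieExceptional Cfsg.Agent.LieExceptional.SuzukiBasic Cfsg.Agent.LieExceptional.SuzukiSylow
open Cfsg.Agent.H98.SzBasic Cfsg.Agent.H98.SzInv

variable {F : Type*} [Field F] [Fintype F] {m : ℕ}

/-- the product of two opposite central involutions -/
def M (hF : Fintype.card F = 2 ^ (2 * m + 1)) (s t : F) : Cfsg.Sz F m := w hF * u hF 0 s * w hF * u hF 0 t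

theorem tr_M (hF : Fintype.card F = 2 ^ (2 * m + 1)) (s t : F) : tr (M hF s t) = (s * t) ^ 2 ^ (m + 1) := by
  have := charP_two hF
  have h2 : (2 : F) = 0 := CharTwo.two_eq_zero
  show Matrix.trace (((W F : SL(4, F)) : Matrix (Fin 4) (Fin 4) F) * ((U m 0 s : SL(4, F)) : Matrix (Fin 4) (Fin 4) F) *
    ((W F : SL(4, F)) : Matrix (Fin 4) (Fin 4) F) * ((U m 0 t : SL(4, F)) : Matrix (Fin 4) (Fin 4) F)) = _
  rw [U_coe, U_coe, W_coe]
  simp only [Matrix.trace, Matrix.diag_apply, Fin.sum_univ_four, Matrix.mul_apply]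
  simp [zc_def]
  rw [mul_pow]
  linear_combination (2 + s * t) * h2

/-- every element of odd order is conjugate to every `z₋(s) z(t)` with the right product `s t` -/
theorem conj_M (hm : 1 ≤ m) (hF : Fintype.card F = 2 ^ (2 * m + 1)) {g : Cfsg.Sz F m}
    (hg : ∀ P : Sylow 2 (Cfsg.Sz F m), g ∉ (P : Subgroup (Cfsg.Sz F m))) :
    ∃ b : F, b ≠ 0 ∧ ∀ s t : F, s * t = b → ∃ y, y * g * y⁻¹ = M hF s t := by
  obtain ⟨y, b, hb, e⟩ := exists_conj_w_u hm hF hg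
  refine ⟨b, hb, fun s t hst => conj_of_tr hm hF (tr_ne_zero hm hF hg) ?_⟩
  rw [tr_M, hst, ← tr_conj y g, e, tr_w_u_zero]

omit [Fintype F] in
/-- an element of odd prime order is in no Sylow 2-subgroup -/
theorem notMem_of_odd {g : Cfsg.Sz F m} {p : ℕ} (hp : p.Prime) (hp2 : p ≠ 2) (hg : orderOf g = p)
    (P : Sylow 2 (Cfsg.Sz F m)) : g ∉ (P : Subgroup (Cfsg.Sz F m)) := by
  intro h
  have : Fact (Nat.Prime 2) := ⟨Nat.prime_two⟩
  obtain ⟨k, hk⟩ := P.isPGroup' ⟨g, h⟩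
  have h1 : g ^ 2 ^ k = 1 := congrArg Subtype.val hk
  have h2 := orderOf_dvd_of_pow_eq_one h1
  rw [hg] at h2
  exact hp2 ((Nat.prime_dvd_prime_iff_eq hp Nat.prime_two).1 (hp.dvd_of_dvd_pow h2))

/-- **START for `Sz(q)`**: there are `b₁ ≠ b₂` nonzero such that `z₋(s₁) z(t₁)`, `z₋(s₂) z(t₂)` generate `Sz(q)` as
soon as `s₁ t₁ = b₁`, `s₂ t₂ = b₂`. -/
theorem start (hm : 1 ≤ m) (hF : Fintype.card F = 2 ^ (2 * m + 1)) :
    ∃ b₁ b₂ : F, b₁ ≠ 0 ∧ b₂ ≠ 0 ∧ b₁ ≠ b₂ ∧ ∀ s₁ t₁ s₂ t₂ : F, s₁ * t₁ = b₁ → s₂ * t₂ = b₂ →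
      Subgroup.closure {M hF s₁ t₁, M hF s₂ t₂} = (⊤ : Subgroup (Cfsg.Sz F m)) := by
  obtain ⟨ρ, hρ, hρ1, hρ2, hρ3⟩ := Cfsg.Agent.Lib.Zsigmondy.exists_primitive (a := 2) (n := 4 * (2 * m + 1)) le_rfl
    (by omega) (by omega) (by omega)
  obtain ⟨s, hs, hs1, hs2, hs3⟩ := Cfsg.Agent.Lib.Zsigmondy.exists_primitive (a := 2) (n := 2 * m + 1) le_rfl
    (by omega) (by omega) (by omega)
  have hcard := Cfsg.Agent.S0324.result hm hF
  have hsq : s ∣ 2 ^ (2 * m + 1) - 1 := (hs1 _).2 dvd_rfl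
  have hρq : ρ ∣ (2 ^ (2 * m + 1)) ^ 2 + 1 := by
    have h1 : ρ ∣ (2 ^ (2 * m + 1)) ^ 4 - 1 := by
      rw [← pow_mul]
      exact (hρ1 _).2 (by rw [mul_comm])
    have h2 : (2 ^ (2 * m + 1)) ^ 4 - 1 = ((2 ^ (2 * m + 1)) ^ 2 + 1) * ((2 ^ (2 * m + 1)) ^ 2 - 1) := by
      generalize 2 ^ (2 * m + 1) = q
      have : (q ^ 2) ^ 2 - 1 ^ 2 = (q ^ 2 + 1) * (q ^ 2 - 1) := Nat.sq_sub_sq _ _
      rw [← this, ← pow_mul, one_pow]
    rw [h2] at h1
    refine (hρ.dvd_mul.1 h1).resolve_right fun h => ?_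
    rw [← pow_mul] at h
    have := (hρ1 _).1 h
    have := Nat.le_of_dvd (by omega) this
    omega
  have hρ2' : ρ ≠ 2 := by rintro rfl; exact hρ3 dvd_rfl
  have hs2' : s ≠ 2 := by rintro rfl; exact hs3 dvd_rfl
  have hne : s ≠ ρ := by
    rintro rfl
    have h1 := (hρ1 (2 * m + 1)).1 hsq
    have := Nat.le_of_dvd (by omega) h1
    omega
  have hsL : s ∣ Nat.card (Cfsg.Sz F m) := by
    rw [hcard]; exact hsq.mul_left _
  have hρL : ρ ∣ Nat.card (Cfsg.Sz F m) := by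
    rw [hcard]; exact (hρq.mul_left _).mul_right _
  have : Fact s.Prime := ⟨hs⟩
  have : Fact ρ.Prime := ⟨hρ⟩
  have hfin : Finite (Cfsg.Sz F m) := inferInstance
  obtain ⟨a, ha⟩ := exists_prime_orderOf_dvd_card' (G := Cfsg.Sz F m) s hsL
  obtain ⟨z, hz⟩ := exists_prime_orderOf_dvd_card' (G := Cfsg.Sz F m) ρ hρL
  obtain ⟨b₁, hb₁, h₁⟩ := conj_M hm hF (notMem_of_odd hs hs2' ha)
  obtain ⟨b₂, hb₂, h₂⟩ := conj_M hm hF (notMem_of_odd hρ hρ2' hz)
  have ho : ∀ {g g' y : Cfsg.Sz F m}, y * g * y⁻¹ = g' → orderOf g' = orderOf g := by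
    rintro g g' y rfl
    rw [← MulAut.conj_apply, MulEquiv.orderOf_eq]
  refine ⟨b₁, b₂, hb₁, hb₂, ?_, fun s₁ t₁ s₂ t₂ e₁ e₂ => ?_⟩
  · rintro rfl
    obtain ⟨y₁, hy₁⟩ := h₁ b₁ 1 (mul_one _)
    obtain ⟨y₂, hy₂⟩ := h₂ b₁ 1 (mul_one _)
    apply hne
    rw [← ha, ← hz, ← ho hy₁, ← ho hy₂]
  · obtain ⟨y₁, hy₁⟩ := h₁ s₁ t₁ e₁
    obtain ⟨y₂, hy₂⟩ := h₂ s₂ t₂ e₂
    by_contra hM
    refine Cfsg.Agent.H947.Cyc.sz_false hm hF _ hM hρ hρ1 hρ3 ?_ hs hsq ?_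
    · rw [← hz, ← ho hy₂]
      exact Subgroup.orderOf_dvd_natCard _ (Subgroup.subset_closure (Or.inr rfl))
    · rw [← ha, ← ho hy₁]
      exact Subgroup.orderOf_dvd_natCard _ (Subgroup.subset_closure (Or.inl rfl))

/-- a field of order `2 ^ (2 m + 1)`: `t ↦ c φ(t) t` is surjective on the nonzero elements -/
theorem exists_mul (hF : Fintype.card F = 2 ^ (2 * m + 1)) {c : F} (hc : c ≠ 0) (φ : F ≃+* F) {b : F} (hb : b ≠ 0) :
    ∃ t : F, t ≠ 0 ∧ c * φ t * t = b := by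
  have := charP_two hF
  have hinj : Function.Injective fun t : Fˣ => Units.mk0 (c * φ t * t)
      (mul_ne_zero (mul_ne_zero hc ((map_ne_zero φ).2 t.ne_zero)) t.ne_zero) := by
    intro t t' h
    have h1 : c * φ t * t = c * φ t' * t' := congrArg Units.val h
    have h2 : φ t * t = φ t' * t' := by
      have h3 : c * (φ t * t) = c * (φ t' * t') := by rw [← mul_assoc, ← mul_assoc, h1]
      exact mul_left_cancel₀ hc h3
    -- `x = t / t'` satisfies `φ x = x⁻¹`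
    set x : F := t / t' with hx
    have hx0 : x ≠ 0 := div_ne_zero t.ne_zero t'.ne_zero
    have h3 : φ x * x = 1 := by
      rw [hx, map_div₀, div_mul_div_comm, h2, div_self]
      exact mul_ne_zero ((map_ne_zero φ).2 t'.ne_zero) t'.ne_zero
    have h4 : φ x = x⁻¹ := eq_inv_of_mul_eq_one_left h3
    have h5 : (φ ^ 2) x = x := by
      show φ (φ x) = x
      rw [h4, map_inv₀, h4, inv_inv]
    obtain ⟨k, hk⟩ : Odd (orderOf φ) := by
      have h6 : orderOf φ ∣ 2 * m + 1 := by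
        have hp : Fact (Nat.Prime 2) := ⟨Nat.prime_two⟩
        have h7 : Nat.card (F ≃+* F) = 2 * m + 1 := Cfsg.Agent.Lib.FieldAutCard.card_ringAut (by omega) hF
        rw [← h7]
        exact orderOf_dvd_natCard (G := RingAut F) φ
      exact Odd.of_dvd_nat ⟨m, rfl⟩ h6
    have h6 : (φ ^ (2 * k)) x = x := by
      rw [pow_mul]
      have : ∀ j : ℕ, ((φ ^ 2) ^ j) x = x := by
        intro j
        induction j with
        | zero => rfl
        | succ j ih => rw [pow_succ, RingAut.mul_apply, h5, ih]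
      exact this k
    have h7 : φ x = x := by
      have h8 : φ ^ (2 * k + 1) = 1 := by rw [← hk]; exact pow_orderOf_eq_one φ
      have h9 : (φ ^ (2 * k + 1)) x = x := by rw [h8]; rfl
      rw [pow_succ', RingAut.mul_apply, h6] at h9
      exact h9
    rw [h7] at h3
    have h8 : x = 1 := by
      have h9 : (x - 1) ^ 2 = 0 := by
        have h2 : (2 : F) = 0 := CharTwo.two_eq_zero
        linear_combination h3 - (x - 1) * h2
      exact sub_eq_zero.1 (pow_eq_zero_iff (by norm_num) |>.1 h9)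
    apply Units.ext
    rw [hx, div_eq_one_iff_eq t'.ne_zero] at h8
    exact h8
  obtain ⟨t, ht⟩ := (Finite.injective_iff_surjective.1 hinj) (Units.mk0 b hb)
  exact ⟨t, t.ne_zero, congrArg Units.val ht⟩

/-- **SZ-START**: `z₋(c φ(t₁)) z(t₁)` and `z₋(c φ(t₂)) z(t₂)` generate `Sz(q)` for suitable `t₁ ≠ t₂` -/
theorem start_field (hm : 1 ≤ m) (hF : Fintype.card F = 2 ^ (2 * m + 1)) {c : F} (hc : c ≠ 0) (φ : F ≃+* F) :
    ∃ t₁ t₂ : F, t₁ ≠ 0 ∧ t₂ ≠ 0 ∧ t₁ ≠ t₂ ∧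
      Subgroup.closure {M hF (c * φ t₁) t₁, M hF (c * φ t₂) t₂} = (⊤ : Subgroup (Cfsg.Sz F m)) := by
  obtain ⟨b₁, b₂, hb₁, hb₂, hne, h⟩ := start hm hF
  obtain ⟨t₁, ht₁, e₁⟩ := exists_mul hF hc φ hb₁
  obtain ⟨t₂, ht₂, e₂⟩ := exists_mul hF hc φ hb₂
  refine ⟨t₁, t₂, ht₁, ht₂, ?_, h _ _ _ _ e₁ e₂⟩
  rintro rfl
  exact hne (e₁.symm.trans e₂)

end Cfsg.Agent.H937.Gs.SzS
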